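import Cfsg.Agent.TypeLFive.LThreeFrame

/-!
# 2-subgroups of `GL(3, F)`, `2 ≠ 0` in `F`

* `exists_neg_one`: an elementary abelian subgroup of order `8` of `GL(3, F)` contains `-1`.
* `mem_commutator`: a central involution of determinant one of a nonabelian 2-subgroup of `GL(3, F)` lies in the
  commutator subgroup.
-/

set_option autoImplicit false

open scoped MatrixGroups Matrix commutatorElement

namespace Cfsg.Agent.H19.GLThreeTwo

open Cfsg.Agent.TypeLFive.LThreeFrame

variable {F : Type*} [Field F]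

theorem coe_mul {X : Type*} [Group X] (φ : X →* GL (Fin 3) F) (x y : X) :
    (φ (x * y) : Matrix (Fin 3) (Fin 3) F) = φ x * φ y := by
  rw [map_mul]; rfl

theorem det_neg_fin_three (M : Matrix (Fin 3) (Fin 3) F) : (-M).det = -M.det := by
  rw [Matrix.det_neg]; simp; ring

/-- A matrix commuting with `D0` and `D1` is diagonal. -/
theorem diag_of_commute (h2 : (2 : F) ≠ 0) {X : Matrix (Fin 3) (Fin 3) F}
    (h0 : X * D0 F = D0 F * X) (h1 : X * D1 F = D1 F * X) :
    X = Matrix.diagonal (fun i => X i i) := by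
  obtain ⟨h01, h02, h10, h20⟩ := block h2 h0
  have hz : ∀ x : F, -x = x → x = 0 := by
    intro x hx
    have : (2 : F) * x = 0 := by linear_combination -hx
    exact (mul_eq_zero.1 this).resolve_left h2
  have h12 : X 1 2 = 0 := by
    have := congrFun (congrFun h1 1) 2
    simp only [Matrix.mul_apply, Fin.sum_univ_three] at this
    apply hz
    simpa [D1] using this
  have h21 : X 2 1 = 0 := by
    have := congrFun (congrFun h1 2) 1
    simp only [Matrix.mul_apply, Fin.sum_univ_three] at this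
    apply hz
    simpa [D1] using this.symm
  ext i j
  fin_cases i <;> fin_cases j <;> simp [h01, h02, h10, h20, h12, h21]

/-- A diagonal matrix with square one is a signed version of `1`, `D0`, `D1`, `D2`. -/
theorem diag_cases {X : Matrix (Fin 3) (Fin 3) F} (hX : X = Matrix.diagonal (fun i => X i i))
    (hXX : X * X = 1) : ∃ Y : Matrix (Fin 3) (Fin 3) F, (Y = 1 ∨ Y = D0 F ∨ Y = D1 F ∨ Y = D2 F) ∧
      (X = Y ∨ X = -Y) := by
  have hd : ∀ i, X i i = 1 ∨ X i i = -1 := by
    intro i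
    rw [← mul_self_eq_one_iff]
    rw [hX, Matrix.diagonal_mul_diagonal] at hXX
    have := congrFun (congrFun hXX i) i
    simpa using this
  rcases hd 0 with h0 | h0 <;> rcases hd 1 with h1 | h1 <;> rcases hd 2 with h3 | h3
  · refine ⟨1, by simp, Or.inl ?_⟩
    rw [hX]
    ext i j
    fin_cases i <;> fin_cases j <;> simp [h0, h1, h3]
  · refine ⟨D2 F, by simp, Or.inr ?_⟩
    rw [hX]
    ext i j
    fin_cases i <;> fin_cases j <;> simp [h0, h1, h3, D2]
  · refine ⟨D1 F, by simp, Or.inr ?_⟩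
    rw [hX]
    ext i j
    fin_cases i <;> fin_cases j <;> simp [h0, h1, h3, D1]
  · refine ⟨D0 F, by simp, Or.inl ?_⟩
    rw [hX]
    ext i j
    fin_cases i <;> fin_cases j <;> simp [h0, h1, h3, D0]
  · refine ⟨D0 F, by simp, Or.inr ?_⟩
    rw [hX]
    ext i j
    fin_cases i <;> fin_cases j <;> simp [h0, h1, h3, D0]
  · refine ⟨D1 F, by simp, Or.inl ?_⟩
    rw [hX]
    ext i j
    fin_cases i <;> fin_cases j <;> simp [h0, h1, h3, D1]
  · refine ⟨D2 F, by simp, Or.inl ?_⟩
    rw [hX]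
    ext i j
    fin_cases i <;> fin_cases j <;> simp [h0, h1, h3, D2]
  · refine ⟨1, by simp, Or.inr ?_⟩
    rw [hX]
    ext i j
    fin_cases i <;> fin_cases j <;> simp [h0, h1, h3]

/-- If `T`, `U`, `W` commute and have square one, `T ≠ 1`, `U ≠ 1`, `T ≠ U` of determinant one, then `W` is
`±1`, `±T`, `±U` or `±T U`. -/
theorem four_cases (h2 : (2 : F) ≠ 0) {T U W : Matrix (Fin 3) (Fin 3) F} (hT : T * T = 1)
    (hTd : T.det = 1) (hT1 : T ≠ 1) (hU : U * U = 1) (hUd : U.det = 1) (hU1 : U ≠ 1)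
    (hTU : T ≠ U) (hc : T * U = U * T) (hW : W * W = 1) (hTW : T * W = W * T) (hUW : U * W = W * U) :
    ∃ Y, (Y = 1 ∨ Y = T ∨ Y = U ∨ Y = T * U) ∧ (W = Y ∨ W = -Y) := by
  obtain ⟨P, hP, hTP, hUP⟩ := exists_frame h2 hT hTd hT1 hU hUd hU1 hTU hc
  have hPu : IsUnit P.det := isUnit_iff_ne_zero.mpr hP
  have hPi : P⁻¹ * P = 1 := Matrix.nonsing_inv_mul P hPu
  have hPi' : P * P⁻¹ = 1 := Matrix.mul_nonsing_inv P hPu
  have hTe : T = P * D0 F * P⁻¹ := by rw [← hTP, mul_assoc, hPi', mul_one]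
  have hUe : U = P * D1 F * P⁻¹ := by rw [← hUP, mul_assoc, hPi', mul_one]
  have hinv : ∀ A B : Matrix (Fin 3) (Fin 3) F, P * A * P⁻¹ * (P * B * P⁻¹) = P * (A * B) * P⁻¹ := by
    intro A B
    calc P * A * P⁻¹ * (P * B * P⁻¹) = P * A * (P⁻¹ * P) * B * P⁻¹ := by simp only [mul_assoc]
      _ = P * (A * B) * P⁻¹ := by rw [hPi]; simp only [mul_assoc, mul_one, one_mul]
  obtain ⟨V, hV⟩ : ∃ V, V = P⁻¹ * W * P := ⟨_, rfl⟩
  have hWe : W = P * V * P⁻¹ := by
    calc W = (P * P⁻¹) * W * (P * P⁻¹) := by rw [hPi', one_mul, mul_one]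
      _ = _ := by rw [hV]; simp only [mul_assoc]
  have hinj : ∀ A B : Matrix (Fin 3) (Fin 3) F, P * A * P⁻¹ = P * B * P⁻¹ → A = B := by
    intro A B h
    have h4 : ∀ C : Matrix (Fin 3) (Fin 3) F, P⁻¹ * (P * C * P⁻¹) * P = C := by
      intro C
      calc P⁻¹ * (P * C * P⁻¹) * P = (P⁻¹ * P) * C * (P⁻¹ * P) := by simp only [mul_assoc]
        _ = C := by rw [hPi, one_mul, mul_one]
    rw [← h4 A, h, h4]
  have hV0 : V * D0 F = D0 F * V := by
    apply hinj
    rw [← hinv, ← hinv]
    rw [hWe, hTe] at hTW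
    exact hTW.symm
  have hV1 : V * D1 F = D1 F * V := by
    apply hinj
    rw [← hinv, ← hinv]
    rw [hWe, hUe] at hUW
    exact hUW.symm
  have hVV : V * V = 1 := by
    apply hinj
    rw [← hinv, mul_one, hPi', ← hWe, hW]
  obtain ⟨Y, hY, hVY⟩ := diag_cases (diag_of_commute h2 hV0 hV1) hVV
  refine ⟨P * Y * P⁻¹, ?_, ?_⟩
  · rcases hY with rfl | rfl | rfl | rfl
    · left; rw [mul_one, hPi']
    · right; left; rw [hTe]
    · right; right; left; rw [hUe]
    · right; right; right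
      rw [hTe, hUe, hinv, D0_mul_D1]
  · rcases hVY with h | h
    · left; rw [hWe, h]
    · right; rw [hWe, h]; simp

/-- An elementary abelian subgroup of order `8` of `GL(3, F)` contains `-1`. -/
theorem exists_neg_one (h2 : (2 : F) ≠ 0) {E : Type*} [Group E] [Finite E] (hE : ∀ x : E, x * x = 1)
    (h8 : Nat.card E = 8) (φ : E →* GL (Fin 3) F) (hφ : Function.Injective φ) :
    ∃ x : E, (φ x : Matrix (Fin 3) (Fin 3) F) = -1 := by
  classical
  by_contra hcon
  push Not at hcon
  set m : E → Matrix (Fin 3) (Fin 3) F := fun x => (φ x : Matrix (Fin 3) (Fin 3) F) with hm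
  have hmul : ∀ x y, m (x * y) = m x * m y := fun x y => coe_mul φ x y
  have hm1 : m 1 = 1 := by simp [hm]
  have hinj : Function.Injective m := fun x y h => hφ (Units.ext h)
  have hcomm : ∀ x y : E, x * y = y * x := by
    intro x y
    have h1 := hE (x * y)
    have hx : x⁻¹ = x := inv_eq_of_mul_eq_one_right (hE x)
    have hy : y⁻¹ = y := inv_eq_of_mul_eq_one_right (hE y)
    calc x * y = (x * y)⁻¹ := (inv_eq_of_mul_eq_one_right h1).symm
      _ = y * x := by rw [mul_inv_rev, hx, hy]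
  have hne : ∀ x y : E, m x ≠ -m y := by
    intro x y h
    apply hcon (x * y)
    change m (x * y) = -1
    rw [hmul, h, neg_mul, ← hmul, hE, hm1]
  -- choose `a`, `b`, `c`
  have hcardlt : ∀ s : Finset E, s.card < 8 → ∃ x, x ∉ s := by
    intro s hs
    by_contra h
    push Not at h
    cases nonempty_fintype E
    have : s = Finset.univ := Finset.eq_univ_iff_forall.mpr h
    rw [this, Finset.card_univ, ← Nat.card_eq_fintype_card, h8] at hs
    omega
  obtain ⟨a, ha⟩ := hcardlt {1} (by simp)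
  obtain ⟨b, hb⟩ := hcardlt {1, a} (lt_of_le_of_lt (Finset.card_le_two) (by norm_num))
  obtain ⟨c, hc⟩ := hcardlt {1, a, b, a * b} (lt_of_le_of_lt (Finset.card_le_four) (by norm_num))
  simp only [Finset.mem_singleton, Finset.mem_insert, not_or] at ha hb hc
  have hsign : ∀ x : E, x ≠ 1 → ∃ T : Matrix (Fin 3) (Fin 3) F, (T = m x ∨ T = -m x) ∧ T.det = 1 ∧
      T * T = 1 ∧ T ≠ 1 := by
    intro x hx
    have hxx : m x * m x = 1 := by rw [← hmul, hE, hm1]
    have hdd : (m x).det * (m x).det = 1 := by rw [← Matrix.det_mul, hxx, Matrix.det_one]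
    rcases mul_self_eq_one_iff.mp hdd with h | h
    · exact ⟨m x, Or.inl rfl, h, hxx, fun h1 => hx (hinj (h1.trans hm1.symm))⟩
    · refine ⟨-m x, Or.inr rfl, ?_, ?_, ?_⟩
      · rw [det_neg_fin_three, h, neg_neg]
      · rw [neg_mul_neg, hxx]
      · intro h1
        apply hne 1 x
        rw [hm1, h1]
  obtain ⟨T, hTa, hTd, hTT, hT1⟩ := hsign a ha
  obtain ⟨U, hUb, hUd, hUU, hU1⟩ := hsign b hb.1
  have hcm : ∀ x y : E, m x * m y = m y * m x := fun x y => by rw [← hmul, ← hmul, hcomm]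
  have hTU : T ≠ U := by
    rcases hTa with rfl | rfl <;> rcases hUb with rfl | rfl
    · intro h; exact hb.2 (hinj h).symm
    · exact hne a b
    · intro h; exact hne b a h.symm
    · intro h; exact hb.2 (hinj (neg_injective h)).symm
  obtain ⟨Y, hY, hWY⟩ := four_cases h2 (W := m c) hTT hTd hT1 hUU hUd hU1 hTU
    (by rcases hTa with rfl | rfl <;> rcases hUb with rfl | rfl <;> simp [hcm a b])
    (by rw [← hmul, hE, hm1])
    (by rcases hTa with rfl | rfl <;> simp [hcm a c])
    (by rcases hUb with rfl | rfl <;> simp [hcm b c])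
  have hfin : ∃ y : E, (y = 1 ∨ y = a ∨ y = b ∨ y = a * b) ∧ (m c = m y ∨ m c = -m y) := by
    rcases hY with rfl | rfl | rfl | rfl
    · exact ⟨1, Or.inl rfl, by rw [hm1]; exact hWY⟩
    · refine ⟨a, Or.inr (Or.inl rfl), ?_⟩
      rcases hTa with h | h <;> rw [h] at hWY
      · exact hWY
      · rw [neg_neg] at hWY; exact hWY.symm
    · refine ⟨b, Or.inr (Or.inr (Or.inl rfl)), ?_⟩
      rcases hUb with h | h <;> rw [h] at hWY
      · exact hWY
      · rw [neg_neg] at hWY; exact hWY.symm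
    · refine ⟨a * b, Or.inr (Or.inr (Or.inr rfl)), ?_⟩
      rw [hmul]
      rcases hTa with h | h <;> rcases hUb with h' | h' <;> rw [h, h'] at hWY
      · exact hWY
      · rw [mul_neg, neg_neg] at hWY; exact hWY.symm
      · rw [neg_mul, neg_neg] at hWY; exact hWY.symm
      · rw [neg_mul_neg] at hWY; exact hWY
  obtain ⟨y, hy, hcy⟩ := hfin
  rcases hcy with h | h
  · have := hinj h
    rcases hy with rfl | rfl | rfl | rfl
    · exact hc.1 this
    · exact hc.2.1 this
    · exact hc.2.2.1 this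
    · exact hc.2.2.2 this
  · exact hne c y h

/-- A central involution of determinant one of a nonabelian 2-subgroup of `GL(3, F)` lies in the commutator
subgroup. -/
theorem mem_commutator (h2 : (2 : F) ≠ 0) {X : Type*} [Group X] [Finite X] (hX : IsPGroup 2 X)
    (φ : X →* GL (Fin 3) F) (hφ : Function.Injective φ) (hna : ¬ ∀ a b : X, a * b = b * a) {z : X}
    (hz : ∀ x : X, x * z = z * x) (hzz : z * z = 1) (hz1 : z ≠ 1)
    (hdet : (φ z : Matrix (Fin 3) (Fin 3) F).det = 1) : z ∈ commutator X := by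
  set m : X → Matrix (Fin 3) (Fin 3) F := fun x => (φ x : Matrix (Fin 3) (Fin 3) F) with hm
  have hmul : ∀ x y, m (x * y) = m x * m y := fun x y => coe_mul φ x y
  have hm1 : m 1 = 1 := by simp [hm]
  have hinj : Function.Injective m := fun x y h => hφ (Units.ext h)
  -- an involution `u` of the commutator subgroup
  obtain ⟨u, hu, huu, hu1⟩ : ∃ u ∈ commutator X, u * u = 1 ∧ u ≠ 1 := by
    have hne : commutator X ≠ ⊥ := by
      intro h
      apply hna
      intro a b
      have h1 : ⁅a, b⁆ ∈ commutator X := Subgroup.commutator_mem_commutator (Subgroup.mem_top a) (Subgroup.mem_top b)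
      rw [h, Subgroup.mem_bot, commutatorElement_eq_one_iff_mul_comm] at h1
      exact h1
    have hp : IsPGroup 2 (commutator X) := hX.to_subgroup _
    have : Nontrivial (commutator X) := (Subgroup.nontrivial_iff_ne_bot _).mpr hne
    obtain ⟨n, hn0, hn⟩ := hp.nontrivial_iff_card.mp inferInstance
    obtain ⟨⟨u, hu⟩, hu2⟩ := exists_prime_orderOf_dvd_card' (G := commutator X) 2
      (by rw [hn]; exact dvd_pow_self 2 hn0.ne')
    rw [Subgroup.orderOf_mk] at hu2
    refine ⟨u, hu, ?_, ?_⟩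
    · have := pow_orderOf_eq_one u
      rwa [hu2, pow_two] at this
    · rintro rfl
      rw [orderOf_one] at hu2
      omega
  have hkill : ∀ (A : Type _) [CommGroup A] (f : X →* A), f u = 1 := by
    intro A _ f
    have h1 : commutator X ≤ f.ker := Abelianization.commutator_subset_ker f
    exact MonoidHom.mem_ker.mp (h1 hu)
  by_contra hcon
  have hzu : z ≠ u := fun h => hcon (h ▸ hu)
  have hudet : (m u).det = 1 := by
    have h1 := hkill _ (Matrix.GeneralLinearGroup.det.comp φ)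
    have h2 := congrArg (Units.val) h1
    simpa using h2
  obtain ⟨P, hP, hTP, hUP⟩ := exists_frame h2 (T := m z) (U := m u)
    (by rw [← hmul, hzz, hm1]) hdet (fun h => hz1 (hinj (h.trans hm1.symm)))
    (by rw [← hmul, huu, hm1]) hudet (fun h => hu1 (hinj (h.trans hm1.symm)))
    (fun h => hzu (hinj h)) (by rw [← hmul, ← hmul, hz])
  have hPu : IsUnit P.det := isUnit_iff_ne_zero.mpr hP
  have hPi : P⁻¹ * P = 1 := Matrix.nonsing_inv_mul P hPu
  have hPi' : P * P⁻¹ = 1 := Matrix.mul_nonsing_inv P hPu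
  have hD0 : P⁻¹ * m z * P = D0 F := by rw [mul_assoc, hTP, ← mul_assoc, hPi, one_mul]
  have hD1 : P⁻¹ * m u * P = D1 F := by rw [mul_assoc, hUP, ← mul_assoc, hPi, one_mul]
  have hconj : ∀ A B : Matrix (Fin 3) (Fin 3) F,
      (P⁻¹ * A * P) * (P⁻¹ * B * P) = P⁻¹ * (A * B) * P := by
    intro A B
    calc (P⁻¹ * A * P) * (P⁻¹ * B * P) = P⁻¹ * A * (P * P⁻¹) * B * P := by
          simp only [mul_assoc]
      _ = P⁻¹ * (A * B) * P := by rw [hPi']; simp only [mul_assoc, mul_one, one_mul]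
  have hb : ∀ x : X, (P⁻¹ * m x * P) 0 1 = 0 ∧ (P⁻¹ * m x * P) 0 2 = 0 ∧ (P⁻¹ * m x * P) 1 0 = 0 ∧
      (P⁻¹ * m x * P) 2 0 = 0 := by
    intro x
    apply block h2
    rw [← hD0, hconj, hconj, ← hmul, ← hmul, hz]
  let χ : X →* F :=
    { toFun := fun x => (P⁻¹ * m x * P) 0 0
      map_one' := by rw [hm1, mul_one, hPi]; simp
      map_mul' := by
        intro x y
        rw [hmul, ← hconj, Matrix.mul_apply, Fin.sum_univ_three, (hb x).1, (hb x).2.1]
        ring }
  have h3 := hkill _ χ.toHomUnits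
  have h4 : χ u = 1 := by
    have := congrArg Units.val h3
    simpa using this
  have h5 : (P⁻¹ * m u * P) 0 0 = 1 := h4
  rw [hD1] at h5
  simp only [D1, Matrix.of_apply, Matrix.cons_val', Matrix.cons_val_zero, Matrix.cons_val_fin_one] at h5
  exact h2 (by linear_combination -h5)

end Cfsg.Agent.H19.GLThreeTwo
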