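import Cfsg.Agent.H19.Order320

/-!
# A group of order 320 with derived subgroup of order 64 with four-group centre is as in `Order320.Base`
-/

set_option autoImplicit false

namespace Cfsg.Agent.H19.Order320

open Subgroup
open scoped commutatorElement

section

variable {G : Type*} [Group G] [Finite G]

theorem closure_T_insert (hG : Nat.card G = 320) (hD : Nat.card (commutator G) = 64) {c : G}
    (hc : orderOf c = 5) : commutator G ⊔ zpowers c = ⊤ := by
  have h1 : 64 ∣ Nat.card (commutator G ⊔ zpowers c : Subgroup G) := by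
    rw [← hD]; exact Subgroup.card_dvd_of_le le_sup_left
  have h2 : 5 ∣ Nat.card (commutator G ⊔ zpowers c : Subgroup G) := by
    rw [← hc, ← Nat.card_zpowers]; exact Subgroup.card_dvd_of_le le_sup_right
  have h3 : 64 * 5 ∣ Nat.card (commutator G ⊔ zpowers c : Subgroup G) :=
    Nat.Coprime.mul_dvd_of_dvd_of_dvd (by norm_num) h1 h2
  refine Subgroup.eq_top_of_card_eq _ (Nat.dvd_antisymm (Subgroup.card_subgroup_dvd_card _) ?_)
  rw [hG]
  exact h3

/-- Every element of `T = G'` is a commutator with `c` modulo `N`. -/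
theorem exists_comm_mod (hG : Nat.card G = 320) (hD : Nat.card (commutator G) = 64) {c : G}
    (hc : orderOf c = 5) {N : Subgroup G} [hN : N.Normal]
    (hab : ∀ t ∈ commutator G, ∀ u ∈ commutator G, t * u * t⁻¹ * u⁻¹ ∈ N) :
    ∀ t ∈ commutator G, ∃ u ∈ commutator G, (c * u * c⁻¹ * u⁻¹)⁻¹ * t ∈ N := by
  have hTn : (commutator G).Normal := inferInstance
  have hNc : ∀ {g n : G}, n ∈ N → g * n * g⁻¹ ∈ N := fun h => hN.conj_mem _ h _
  have hmk : ∀ g h : G, (g : G ⧸ N) = (h : G ⧸ N) ↔ g⁻¹ * h ∈ N := fun g h => QuotientGroup.eq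
  -- work modulo `N`
  have hcomm : ∀ t ∈ commutator G, ∀ u ∈ commutator G, (t : G ⧸ N) * u = u * t := by
    intro t ht u hu
    rw [← QuotientGroup.mk_mul, ← QuotientGroup.mk_mul, hmk]
    have := hab t⁻¹ (inv_mem ht) u⁻¹ (inv_mem hu)
    have h2 : (t * u)⁻¹ * (u * t) = u⁻¹ * (t⁻¹ * u * t * u⁻¹) * u⁻¹⁻¹ := by group
    rw [h2]
    apply hNc
    have h3 : t⁻¹ * u * t * u⁻¹ = (t⁻¹ * u * t⁻¹⁻¹ * u⁻¹) := by group
    rw [h3]
    exact hab _ (inv_mem ht) _ hu
  let R : Subgroup (G ⧸ N) :=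
    { carrier := {g | ∃ t ∈ commutator G, g = (c : G ⧸ N) * t * (c : G ⧸ N)⁻¹ * (t : G ⧸ N)⁻¹}
      one_mem' := ⟨1, one_mem _, by simp⟩
      mul_mem' := by
        rintro _ _ ⟨t, ht, rfl⟩ ⟨u, hu, rfl⟩
        refine ⟨t * u, mul_mem ht hu, ?_⟩
        have h1 : (c : G ⧸ N) * u * (c : G ⧸ N)⁻¹ * (u : G ⧸ N)⁻¹ * (t : G ⧸ N)⁻¹ =
            (t : G ⧸ N)⁻¹ * ((c : G ⧸ N) * u * (c : G ⧸ N)⁻¹ * (u : G ⧸ N)⁻¹) := by
          have := hcomm (c * u * c⁻¹ * u⁻¹) (mul_mem (hTn.conj_mem _ hu c) (inv_mem hu)) t⁻¹ (inv_mem ht)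
          simpa using this
        rw [QuotientGroup.mk_mul]
        calc _ = (c : G ⧸ N) * t * (c : G ⧸ N)⁻¹ * ((t : G ⧸ N)⁻¹ *
              ((c : G ⧸ N) * u * (c : G ⧸ N)⁻¹ * (u : G ⧸ N)⁻¹)) := by group
          _ = (c : G ⧸ N) * t * (c : G ⧸ N)⁻¹ * ((c : G ⧸ N) * u * (c : G ⧸ N)⁻¹ * (u : G ⧸ N)⁻¹ *
              (t : G ⧸ N)⁻¹) := by rw [h1]
          _ = _ := by group
      inv_mem' := by
        rintro _ ⟨t, ht, rfl⟩
        refine ⟨t⁻¹, inv_mem ht, ?_⟩
        have h1 : (t : G ⧸ N) * ((c : G ⧸ N) * (t : G ⧸ N)⁻¹ * (c : G ⧸ N)⁻¹) =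
            (c : G ⧸ N) * (t : G ⧸ N)⁻¹ * (c : G ⧸ N)⁻¹ * t := by
          have := hcomm t ht (c * t⁻¹ * c⁻¹) (hTn.conj_mem _ (inv_mem ht) c)
          simpa using this
        rw [QuotientGroup.mk_inv, inv_inv, ← h1]
        group }
  have hRmem : ∀ g : G ⧸ N, g ∈ R ↔ ∃ t ∈ commutator G,
      g = (c : G ⧸ N) * t * (c : G ⧸ N)⁻¹ * (t : G ⧸ N)⁻¹ := fun g => Iff.rfl
  -- a subgroup containing `T` and `c` is everything
  have hall : ∀ P : Subgroup G, commutator G ≤ P → c ∈ P → ∀ g, g ∈ P := by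
    intro P h1 h2 g
    have h3 : commutator G ⊔ zpowers c ≤ P := sup_le h1 ((zpowers_le).mpr h2)
    rw [closure_T_insert hG hD hc] at h3
    exact h3 (mem_top g)
  have hRn : R.Normal := by
    rw [← Subgroup.normalizer_eq_top_iff, eq_top_iff]
    rintro g -
    obtain ⟨g, rfl⟩ := QuotientGroup.mk_surjective g
    refine hall ((normalizer (R : Set (G ⧸ N))).comap (QuotientGroup.mk' N)) ?_ ?_ g
    · intro t ht
      refine Subgroup.mem_normalizer_fintype fun r hr => ?_
      obtain ⟨u, hu, rfl⟩ := hr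
      change (t : G ⧸ N) * ((c : G ⧸ N) * u * (c : G ⧸ N)⁻¹ * (u : G ⧸ N)⁻¹) * (t : G ⧸ N)⁻¹ ∈ R
      have h1 : (t : G ⧸ N) * ((c : G ⧸ N) * u * (c : G ⧸ N)⁻¹ * (u : G ⧸ N)⁻¹) =
          ((c : G ⧸ N) * u * (c : G ⧸ N)⁻¹ * (u : G ⧸ N)⁻¹) * (t : G ⧸ N) := by
        have := hcomm t ht (c * u * c⁻¹ * u⁻¹) (mul_mem (hTn.conj_mem _ hu c) (inv_mem hu))
        simpa using this
      rw [h1, mul_inv_cancel_right]
      exact ⟨u, hu, rfl⟩
    · refine Subgroup.mem_normalizer_fintype fun r hr => ?_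
      obtain ⟨u, hu, rfl⟩ := hr
      refine ⟨c * u * c⁻¹, hTn.conj_mem _ hu c, ?_⟩
      change (c : G ⧸ N) * ((c : G ⧸ N) * u * (c : G ⧸ N)⁻¹ * (u : G ⧸ N)⁻¹) * (c : G ⧸ N)⁻¹ = _
      simp only [QuotientGroup.mk_mul, QuotientGroup.mk_inv]
      group
  let π : G →* (G ⧸ N) ⧸ R := (QuotientGroup.mk' R).comp (QuotientGroup.mk' N)
  have hπ : ∀ t ∈ commutator G, ∀ u ∈ commutator G, π t * π u = π u * π t := by
    intro t ht u hu
    change (QuotientGroup.mk' R) _ * (QuotientGroup.mk' R) _ = _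
    rw [← map_mul]
    change (QuotientGroup.mk' R) ((t : G ⧸ N) * u) = _
    rw [hcomm t ht u hu, map_mul]
    rfl
  have hπc : ∀ t ∈ commutator G, π c * π t = π t * π c := by
    intro t ht
    rw [← map_mul, ← map_mul]
    change ((((c * t : G) : G ⧸ N) : (G ⧸ N) ⧸ R)) = (((t * c : G) : G ⧸ N) : (G ⧸ N) ⧸ R)
    rw [eq_comm, QuotientGroup.eq, hRmem]
    -- `(t c)⁻¹ (c t)` is a conjugate of `c t c⁻¹ t⁻¹`
    have h1 : ((t * c : G) : G ⧸ N)⁻¹ * ((c * t : G) : G ⧸ N) =
        ((c⁻¹ * t⁻¹ : G) : G ⧸ N) * ((c : G ⧸ N) * t * (c : G ⧸ N)⁻¹ * (t : G ⧸ N)⁻¹) *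
          ((c⁻¹ * t⁻¹ : G) : G ⧸ N)⁻¹ := by
      simp only [QuotientGroup.mk_mul, QuotientGroup.mk_inv]
      group
    rw [h1, ← hRmem]
    exact hRn.conj_mem _ ⟨t, ht, rfl⟩ _
  have hC1 : ∀ g, ∀ t ∈ commutator G, π g * π t = π t * π g := by
    intro g t ht
    have := hall ((centralizer ({π t} : Set ((G ⧸ N) ⧸ R))).comap π)
      (fun u hu => Subgroup.mem_centralizer_singleton_iff.mpr (hπ u hu t ht))
      (Subgroup.mem_centralizer_singleton_iff.mpr (hπc t ht)) g
    exact Subgroup.mem_centralizer_singleton_iff.mp this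
  have hC3 : ∀ g, π g * π c = π c * π g := by
    intro g
    have := hall ((centralizer ({π c} : Set ((G ⧸ N) ⧸ R))).comap π)
      (fun u hu => Subgroup.mem_centralizer_singleton_iff.mpr (hπc u hu).symm)
      (Subgroup.mem_centralizer_singleton_iff.mpr rfl) g
    exact Subgroup.mem_centralizer_singleton_iff.mp this
  have hC2 : ∀ g h, π g * π h = π h * π g := by
    intro g h
    have := hall ((centralizer ({π h} : Set ((G ⧸ N) ⧸ R))).comap π)
      (fun u hu => Subgroup.mem_centralizer_singleton_iff.mpr (hC1 h u hu).symm)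
      (Subgroup.mem_centralizer_singleton_iff.mpr (hC3 h).symm) g
    exact Subgroup.mem_centralizer_singleton_iff.mp this
  have hker : commutator G ≤ π.ker := by
    rw [commutator_def, Subgroup.commutator_le]
    intro g _ h _
    rw [MonoidHom.mem_ker, map_commutatorElement, commutatorElement_eq_one_iff_mul_comm]
    exact hC2 g h
  intro t ht
  have h1 : (((t : G) : G ⧸ N) : (G ⧸ N) ⧸ R) = 1 := hker ht
  rw [QuotientGroup.eq_one_iff, hRmem] at h1
  obtain ⟨u, hu, h2⟩ := h1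
  refine ⟨u, hu, ?_⟩
  rw [← hmk]
  rw [h2]
  simp

theorem card_map_mk (T N : Subgroup G) [hN : N.Normal] (hNT : N ≤ T) :
    Nat.card (T.map (QuotientGroup.mk' N)) * Nat.card N = Nat.card T := by
  let g : T →* G ⧸ N := (QuotientGroup.mk' N).comp T.subtype
  have h1 : g.range = T.map (QuotientGroup.mk' N) := by
    rw [MonoidHom.range_comp, Subgroup.range_subtype]
  have h2 : g.ker = N.subgroupOf T := by
    ext t
    rw [MonoidHom.mem_ker, Subgroup.mem_subgroupOf]
    exact QuotientGroup.eq_one_iff _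
  have h3 := Subgroup.index_ker g
  have h4 := Subgroup.card_mul_index g.ker
  rw [h3, h1, h2, Nat.card_congr (Subgroup.subgroupOfEquivOfLe hNT).toEquiv] at h4
  rw [mul_comm]
  exact h4

/-- `c` acts without fixed points on `T / N`. -/
theorem fpf_mod (hG : Nat.card G = 320) (hD : Nat.card (commutator G) = 64) {c : G}
    (hc : orderOf c = 5) {N : Subgroup G} [hN : N.Normal] (hNT : N ≤ commutator G)
    (hab : ∀ t ∈ commutator G, ∀ u ∈ commutator G, t * u * t⁻¹ * u⁻¹ ∈ N) :
    ∀ t ∈ commutator G, c * t * c⁻¹ * t⁻¹ ∈ N → t ∈ N := by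
  have hTn : (commutator G).Normal := inferInstance
  have hcomm : ∀ t ∈ commutator G, ∀ u ∈ commutator G, (t : G ⧸ N) * u = u * t := by
    intro t ht u hu
    rw [← QuotientGroup.mk_mul, ← QuotientGroup.mk_mul, QuotientGroup.eq]
    have h2 : (t * u)⁻¹ * (u * t) = u⁻¹ * (t⁻¹ * u * t⁻¹⁻¹ * u⁻¹) * u⁻¹⁻¹ := by group
    rw [h2]
    exact hN.conj_mem _ (hab _ (inv_mem ht) _ hu) _
  let ψ : commutator G →* G ⧸ N :=
    { toFun := fun t => (c : G ⧸ N) * ((t : G) : G ⧸ N) * (c : G ⧸ N)⁻¹ * ((t : G) : G ⧸ N)⁻¹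
      map_one' := by simp
      map_mul' := by
        intro t u
        have h1 : (c : G ⧸ N) * (u : G) * (c : G ⧸ N)⁻¹ * ((u : G) : G ⧸ N)⁻¹ * ((t : G) : G ⧸ N)⁻¹ =
            ((t : G) : G ⧸ N)⁻¹ * ((c : G ⧸ N) * (u : G) * (c : G ⧸ N)⁻¹ * ((u : G) : G ⧸ N)⁻¹) := by
          have := hcomm (c * u * c⁻¹ * u⁻¹) (mul_mem (hTn.conj_mem _ u.2 c) (inv_mem u.2)) (t : G)⁻¹
            (inv_mem t.2)
          simpa using this
        rw [Subgroup.coe_mul, QuotientGroup.mk_mul]
        calc _ = (c : G ⧸ N) * (t : G) * (c : G ⧸ N)⁻¹ * (((c : G ⧸ N) * (u : G) * (c : G ⧸ N)⁻¹ *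
              ((u : G) : G ⧸ N)⁻¹) * ((t : G) : G ⧸ N)⁻¹) := by group
          _ = (c : G ⧸ N) * (t : G) * (c : G ⧸ N)⁻¹ * (((t : G) : G ⧸ N)⁻¹ *
              ((c : G ⧸ N) * (u : G) * (c : G ⧸ N)⁻¹ * ((u : G) : G ⧸ N)⁻¹)) := by rw [h1]
          _ = _ := by group }
  have hψ : ∀ t : commutator G, t ∈ ψ.ker ↔ c * t * c⁻¹ * (t : G)⁻¹ ∈ N := by
    intro t
    rw [MonoidHom.mem_ker, ← QuotientGroup.eq_one_iff]
    rfl
  have hle : N.subgroupOf (commutator G) ≤ ψ.ker := by
    intro n hn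
    rw [hψ]
    exact mul_mem (hN.conj_mem _ hn c) (inv_mem hn)
  have hrange : (commutator G).map (QuotientGroup.mk' N) ≤ ψ.range := by
    rintro _ ⟨t, ht, rfl⟩
    obtain ⟨u, hu, h1⟩ := exists_comm_mod hG hD hc hab t ht
    rw [← QuotientGroup.eq] at h1
    exact ⟨⟨u, hu⟩, h1⟩
  have h1 := card_map_mk (commutator G) N hNT
  have h2 := Subgroup.card_mul_index ψ.ker
  rw [Subgroup.index_ker] at h2
  have h3 := Subgroup.card_le_of_le hrange
  have h4 : Nat.card (N.subgroupOf (commutator G)) = Nat.card N :=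
    Nat.card_congr (Subgroup.subgroupOfEquivOfLe hNT).toEquiv
  have h5 : Nat.card ψ.ker ≤ Nat.card N := by
    by_contra hlt
    push Not at hlt
    have hpos : 0 < Nat.card ((commutator G).map (QuotientGroup.mk' N)) := Nat.card_pos
    have h6 : Nat.card ((commutator G).map (QuotientGroup.mk' N)) * Nat.card N <
        Nat.card ψ.ker * Nat.card ψ.range := by
      calc _ < Nat.card ((commutator G).map (QuotientGroup.mk' N)) * Nat.card ψ.ker :=
            Nat.mul_lt_mul_of_pos_left hlt hpos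
        _ ≤ Nat.card ψ.range * Nat.card ψ.ker := Nat.mul_le_mul_right _ h3
        _ = _ := mul_comm _ _
    rw [h1, h2] at h6
    exact lt_irrefl _ h6
  have h6 : N.subgroupOf (commutator G) = ψ.ker :=
    Subgroup.eq_of_le_of_card_ge hle (by rw [h4]; exact h5)
  intro t ht h7
  have h8 : (⟨t, ht⟩ : commutator G) ∈ ψ.ker := (hψ _).mpr h7
  rw [← h6] at h8
  exact h8

theorem card_mod (hG : Nat.card G = 320) (hD : Nat.card (commutator G) = 64) {c : G}
    (hc : orderOf c = 5) {N : Subgroup G} [hN : N.Normal] (hNT : N ≤ commutator G)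
    (hab : ∀ t ∈ commutator G, ∀ u ∈ commutator G, t * u * t⁻¹ * u⁻¹ ∈ N) :
    Nat.card N = 64 ∨ Nat.card N = 4 := by
  have hTn : (commutator G).Normal := inferInstance
  have hf := fpf_mod hG hD hc hNT hab
  have h1 := card_map_mk (commutator G) N hNT
  set A := (commutator G).map (QuotientGroup.mk' N) with hA
  have hcA : ∀ e ∈ A, (c : G ⧸ N) * e * (c : G ⧸ N)⁻¹ ∈ A := by
    rintro _ ⟨t, ht, rfl⟩
    exact ⟨c * t * c⁻¹, hTn.conj_mem _ ht c, rfl⟩
  let f : A → A := fun e => ⟨(c : G ⧸ N) * e * (c : G ⧸ N)⁻¹, hcA e e.2⟩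
  have hfix : Nat.card {e : A // f e = e} = 1 := by
    rw [Nat.card_eq_one_iff_unique]
    refine ⟨⟨?_⟩, ⟨⟨1, Subtype.ext (by simp [f])⟩⟩⟩
    have key : ∀ e : A, f e = e → e = 1 := by
      rintro ⟨_, t, ht, rfl⟩ he
      apply Subtype.ext
      change ((t : G) : G ⧸ N) = 1
      rw [QuotientGroup.eq_one_iff]
      apply hf t ht
      have h2 : (c : G ⧸ N) * (t : G ⧸ N) * (c : G ⧸ N)⁻¹ = (t : G ⧸ N) := congrArg Subtype.val he
      rw [← QuotientGroup.eq_one_iff]
      simp only [QuotientGroup.mk_mul, QuotientGroup.mk_inv]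
      rw [h2, mul_inv_cancel]
    rintro ⟨e, he⟩ ⟨e', he'⟩
    apply Subtype.ext
    change e = e'
    rw [key e he, key e' he']
  have h5 : c * c * c * c * c = 1 := by
    have := pow_orderOf_eq_one c
    rw [hc] at this
    simpa only [pow_succ, pow_zero, one_mul] using this
  have h5' : (c : G ⧸ N) * c * c * c * c = 1 := by
    simp only [← QuotientGroup.mk_mul]
    rw [h5]
    rfl
  have hmod := card_modEq_five f (by
    intro e
    apply Subtype.ext
    change (c : G ⧸ N) * (c * (c * (c * (c * e * (c : G ⧸ N)⁻¹) * (c : G ⧸ N)⁻¹) * (c : G ⧸ N)⁻¹) *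
      (c : G ⧸ N)⁻¹) * (c : G ⧸ N)⁻¹ = e
    calc (c : G ⧸ N) * (c * (c * (c * (c * e * (c : G ⧸ N)⁻¹) * (c : G ⧸ N)⁻¹) * (c : G ⧸ N)⁻¹) *
          (c : G ⧸ N)⁻¹) * (c : G ⧸ N)⁻¹ =
          ((c : G ⧸ N) * c * c * c * c) * e * ((c : G ⧸ N) * c * c * c * c)⁻¹ := by group
      _ = e := by rw [h5']; group)
  rw [hfix] at hmod
  rw [hD] at h1
  have h3 : Nat.card A ∣ 2 ^ 6 := ⟨Nat.card N, by rw [h1]; norm_num⟩
  obtain ⟨k, hk, hk2⟩ := (Nat.dvd_prime_pow Nat.prime_two).mp h3
  rw [hk2] at hmod h1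
  interval_cases k
  · left; omega
  · exact absurd hmod (by decide)
  · exact absurd hmod (by decide)
  · exact absurd hmod (by decide)
  · right; omega
  · exact absurd hmod (by decide)
  · exact absurd hmod (by decide)

/-- The subgroup generated by a normal subgroup `Y` and the squares of `T`. -/
def sqs (G : Type*) [Group G] (Y : Subgroup G) : Subgroup G :=
  Y ⊔ closure {g | ∃ t ∈ commutator G, g = t * t}

theorem sqs_normal (Y : Subgroup G) [hY : Y.Normal] : (sqs G Y).Normal := by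
  have h1 : (closure {g : G | ∃ t ∈ commutator G, g = t * t}).Normal := by
    constructor
    intro n hn g
    refine conj_mem_closure ?_ hn
    rintro _ ⟨t, ht, rfl⟩
    refine subset_closure ⟨g * t * g⁻¹, Subgroup.Normal.conj_mem inferInstance t ht g, ?_⟩
    group
  exact Subgroup.sup_normal _ _

theorem sq_mem_sqs (Y : Subgroup G) {t : G} (ht : t ∈ commutator G) : t * t ∈ sqs G Y :=
  le_sup_right (a := Y) (subset_closure ⟨t, ht, rfl⟩)

theorem comm_mem_sqs (Y : Subgroup G) [hY : Y.Normal] : ∀ t ∈ commutator G, ∀ u ∈ commutator G,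
    t * u * t⁻¹ * u⁻¹ ∈ sqs G Y := by
  intro t ht u hu
  have h1 : t * u * t⁻¹ * u⁻¹ = (t * u * (t * u)) * ((u⁻¹ * t⁻¹ * u) * (u⁻¹ * t⁻¹ * u)) * (u⁻¹ * u⁻¹) := by
    group
  rw [h1]
  have hTn : (commutator G).Normal := inferInstance
  refine mul_mem (mul_mem (sq_mem_sqs Y (mul_mem ht hu)) (sq_mem_sqs Y ?_)) (sq_mem_sqs Y (inv_mem hu))
  have := hTn.conj_mem _ (inv_mem ht) u⁻¹
  rwa [inv_inv] at this

theorem sqs_le {Y : Subgroup G} (hY : Y ≤ commutator G) : sqs G Y ≤ commutator G := by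
  refine sup_le hY ((closure_le _).mpr ?_)
  rintro _ ⟨t, ht, rfl⟩
  exact mul_mem ht ht

theorem exists_base (hG : Nat.card G = 320) (hD : Nat.card (commutator G) = 64)
    (hZ : IsKleinFour (Subgroup.center (commutator G))) :
    ∃ (T Z : Subgroup G) (c : G), Base T Z c := by
  have hTn : (commutator G).Normal := inferInstance
  have : Fact (Nat.Prime 5) := ⟨by norm_num⟩
  have : Fact (Nat.Prime 2) := ⟨by norm_num⟩
  obtain ⟨c, hc⟩ := exists_prime_orderOf_dvd_card' (G := G) 5 (by rw [hG]; norm_num)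
  set Z := (Subgroup.center (commutator G)).map (commutator G).subtype with hZdef
  have hZn : Z.Normal := inferInstance
  have hZT : Z ≤ commutator G := by
    rintro _ ⟨z, -, rfl⟩
    exact z.2
  have hcardZ : Nat.card Z = 4 := by
    rw [← hZ.card_four]
    exact (Nat.card_congr ((Subgroup.center (commutator G)).equivMapOfInjective _
      (commutator G).subtype_injective).toEquiv).symm
  have hcen : ∀ z ∈ Z, ∀ t ∈ commutator G, z * t = t * z := by
    rintro _ ⟨z, hz, rfl⟩ t ht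
    have := Subgroup.mem_center_iff.mp hz ⟨t, ht⟩
    exact (congrArg Subtype.val this).symm
  have hzz : ∀ z ∈ Z, z * z = 1 := by
    rintro _ ⟨z, hz, rfl⟩
    have := IsKleinFour.mul_self (⟨z, hz⟩ : Subgroup.center (commutator G))
    have h2 : z * z = 1 := congrArg Subtype.val this
    exact congrArg Subtype.val h2
  have h5 : c * c * c * c * c = 1 := by
    have := pow_orderOf_eq_one c
    rw [hc] at this
    simpa only [pow_succ, pow_zero, one_mul] using this
  have hcenc : ∀ z ∈ Z, z * c = c * z := by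
    let f : Z → Z := fun e => ⟨c * e * c⁻¹, hZn.conj_mem _ e.2 c⟩
    have hmod := card_modEq_five f (by
      intro e
      apply Subtype.ext
      change c * (c * (c * (c * (c * e * c⁻¹) * c⁻¹) * c⁻¹) * c⁻¹) * c⁻¹ = e
      calc c * (c * (c * (c * (c * e * c⁻¹) * c⁻¹) * c⁻¹) * c⁻¹) * c⁻¹ =
            (c * c * c * c * c) * e * (c * c * c * c * c)⁻¹ := by group
        _ = e := by rw [h5]; group)
    rw [hcardZ] at hmod
    have hle : Nat.card {e : Z // f e = e} ≤ 4 := by
      rw [← hcardZ]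
      exact Nat.card_le_card_of_injective _ Subtype.val_injective
    have h4 : Nat.card {e : Z // f e = e} = 4 := by
      have : (4 : ℕ) % 5 = Nat.card {e : Z // f e = e} % 5 := hmod
      omega
    have hsurj : Function.Surjective (Subtype.val : {e : Z // f e = e} → Z) := by
      have := Function.Injective.bijective_of_nat_card_le (f := (Subtype.val : {e : Z // f e = e} → Z))
        Subtype.val_injective (by rw [h4, hcardZ])
      exact this.2
    intro z hz
    obtain ⟨⟨e, he⟩, h6⟩ := hsurj ⟨z, hz⟩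
    have h6' : e = ⟨z, hz⟩ := h6
    rw [h6'] at he
    have h7 : c * z * c⁻¹ = z := congrArg Subtype.val he
    rw [mul_inv_eq_iff_eq_mul] at h7
    exact h7.symm
  -- `Z` contains the squares
  have hNZ : sqs G Z = Z := by
    have hn := sqs_normal (G := G) Z
    have hle := sqs_le hZT
    have hge : Z ≤ sqs G Z := le_sup_left
    rcases card_mod hG hD hc hle (comm_mem_sqs Z) with h | h
    · exfalso
      -- a subgroup of index two of `T` above `Z`
      have hp : IsPGroup 2 (commutator G) := IsPGroup.of_card (n := 6) (by rw [hD]; norm_num)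
      have hZ' : Nat.card (Z.subgroupOf (commutator G)) = 2 ^ 2 := by
        rw [Nat.card_congr (Subgroup.subgroupOfEquivOfLe hZT).toEquiv, hcardZ]
        norm_num
      obtain ⟨M, hM, hZM⟩ := Sylow.exists_subgroup_card_pow_prime_le (p := 2) (n := 2) (m := 5)
        (G := commutator G) (by rw [hD]; norm_num) (Z.subgroupOf (commutator G)) hZ' (by norm_num)
      have hidx : M.index = 2 := by
        have := Subgroup.card_mul_index M
        rw [hM, hD] at this
        omega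
      have h6 : sqs G Z ≤ M.map (commutator G).subtype := by
        refine sup_le ?_ ((closure_le _).mpr ?_)
        · intro z hz
          exact ⟨⟨z, hZT hz⟩, hZM hz, rfl⟩
        · rintro _ ⟨t, ht, rfl⟩
          have := Subgroup.mul_self_mem_of_index_two hidx (⟨t, ht⟩ : commutator G)
          exact ⟨_, this, rfl⟩
      have h7 := Subgroup.card_le_of_le h6
      have h8 : Nat.card (M.map (commutator G).subtype) = Nat.card M :=
        (Nat.card_congr (M.equivMapOfInjective _ (commutator G).subtype_injective).toEquiv).symm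
      rw [h, h8, hM] at h7
      norm_num at h7
    · exact (Subgroup.eq_of_le_of_card_ge hge (by rw [h, hcardZ])).symm
  have hsq : ∀ t ∈ commutator G, t * t ∈ Z := by
    intro t ht
    have := sq_mem_sqs Z ht
    rwa [hNZ] at this
  have hcomm : ∀ t ∈ commutator G, ∀ u ∈ commutator G, t * u * t⁻¹ * u⁻¹ ∈ Z := by
    intro t ht u hu
    have := comm_mem_sqs Z t ht u hu
    rwa [hNZ] at this
  refine ⟨commutator G, Z, c,
    { cardK := hG
      cardT := hD
      cardZ := hcardZ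
      ZT := hZT
      nT := fun t ht => hTn.conj_mem _ ht c
      cen := hcen
      cenc := hcenc
      zz := hzz
      sq := hsq
      comm := hcomm
      c5 := by rw [← hc]; exact pow_orderOf_eq_one c
      cT := ?_
      fpf := fpf_mod hG hD hc hZT hcomm
      gen := ?_ }⟩
  · intro h
    have h1 : orderOf c ∣ 64 := by
      rw [← hD]
      have := orderOf_dvd_natCard (⟨c, h⟩ : commutator G)
      rwa [Subgroup.orderOf_mk] at this
    rw [hc] at h1
    norm_num at h1
  · intro S hS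
    have hbn : (⊥ : Subgroup G).Normal := inferInstance
    have hn := sqs_normal (G := G) ⊥
    have hle : sqs G ⊥ ≤ Z := by
      refine sup_le bot_le ((closure_le _).mpr ?_)
      rintro _ ⟨t, ht, rfl⟩
      exact hsq t ht
    have h1 : sqs G ⊥ = Z := by
      rcases card_mod hG hD hc (hle.trans hZT) (comm_mem_sqs ⊥) with h | h
      · have := Subgroup.card_le_of_le hle
        rw [h, hcardZ] at this
        omega
      · exact Subgroup.eq_of_le_of_card_ge hle (by rw [h, hcardZ])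
    rw [← h1]
    refine sup_le bot_le ((closure_le _).mpr ?_)
    rintro _ ⟨t, ht, rfl⟩
    exact hS t ht

end

end Cfsg.Agent.H19.Order320
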